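import Cfsg.Agent.H875.AbPerm
import Cfsg.Agent.H498.Ab.Def
import Cfsg.Agent.S0364
import Cfsg.Agent.S0366
import Cfsg.Agent.S0384
import Cfsg.Agent.J4Type.DuadM24
import Cfsg.Agent.H865.ThreeClasses
import Cfsg.Agent.SporadicA.M11Comp
import Cfsg.Agent.CoThreeStd.MTwelve
import Cfsg.Agent.SporadicA.MathieuRecog
import Cfsg.Agent.UGT.End.MEleven
import Cfsg.Agent.MTwelveType.SylowModel
import Cfsg.Agent.CoThreeStd.InvTwo

/-!
# Abelian subgroups of the Mathieu groups (helper875, rows of S2501/S2502)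

`ab3_M11`, `ab3_M12`, `ab3_M22`, `ab3_M23`, `ab3_M24` : `|A| ^ 3 < |G|` for abelian `A ≤ G`.
-/

set_option autoImplicit false
set_option linter.unusedSectionVars false

namespace Cfsg.Agent.H875.AbMathieu

open Cfsg Subgroup Cfsg.Agent.H875.AbPerm Cfsg.Agent.H498.Ab
open Cfsg.Agent.SporadicA.GolayBase Cfsg.Agent.SporadicA.GolayPerm Cfsg.Agent.SporadicStructure.M24El
open scoped Pointwise

/-! ### fixed points -/

theorem card24 : Fintype.card GolayPt = 24 := by decide +kernel

theorem fix_le_five {σ : M24} {r : ℕ} (hr : r.Prime) (hr5 : 5 ≤ r) (hσ : orderOf σ = r) :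
    (Finset.univ.filter fun p : GolayPt => (σ : Equiv.Perm GolayPt) p = p).card ≤ 4 := by
  by_contra hcon
  push Not at hcon
  obtain ⟨s, hs, hsc⟩ := Finset.exists_subset_card_eq (n := 5)
    (s := Finset.univ.filter fun p : GolayPt => (σ : Equiv.Perm GolayPt) p = p) (by omega)
  have h5 : MulAction.IsMultiplyPretransitive M24 GolayPt 5 := Cfsg.Agent.S0366.result
  have h1 := h5.index_of_fixingSubgroup_mul (s := (s : Set GolayPt)) (by rw [Set.ncard_coe_finset, hsc])
  have h24 : Nat.card GolayPt = 24 := by rw [Nat.card_eq_fintype_card, card24]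
  rw [h24] at h1
  have hM := Cfsg.Agent.S0364.result
  have h2 := (fixingSubgroup M24 (s : Set GolayPt)).card_mul_index
  rw [hM] at h2
  have h3 : (fixingSubgroup M24 (s : Set GolayPt)).index = 5100480 := by
    have e1 : (24 - 5 : ℕ).factorial = 121645100408832000 := by decide
    have e2 : (24 : ℕ).factorial = 620448401733239439360000 := by decide
    rw [e1, e2] at h1
    omega
  rw [h3] at h2
  have h4 : Nat.card ↥(fixingSubgroup M24 (s : Set GolayPt)) = 48 := by omega
  have hmem : σ ∈ fixingSubgroup M24 (s : Set GolayPt) := by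
    rw [mem_fixingSubgroup_iff]
    intro y hy
    exact (Finset.mem_filter.1 (hs hy)).2
  have h6 : orderOf (⟨σ, hmem⟩ : fixingSubgroup M24 (s : Set GolayPt)) ∣
      Nat.card ↥(fixingSubgroup M24 (s : Set GolayPt)) := orderOf_dvd_natCard _
  rw [← Subgroup.orderOf_coe] at h6
  change orderOf σ ∣ _ at h6
  rw [h4, hσ] at h6
  have h7 : r ∣ 2 ^ 4 * 3 := by norm_num; exact h6
  rcases hr.dvd_mul.1 h7 with h | h
  · have := Nat.le_of_dvd (by norm_num) (hr.dvd_of_dvd_pow h)
    omega
  · have := Nat.le_of_dvd (by norm_num) h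
    omega

/-- an element of prime order of `M24` fixes at most eight points -/
theorem fix_le {c : Equiv.Perm GolayPt} (hc : c ∈ M24) (hp : (orderOf c).Prime) :
    (Finset.univ.filter fun p : GolayPt => c p = p).card ≤ 8 := by
  rcases Nat.lt_or_ge (orderOf c) 5 with h | h
  · have h23 : orderOf c = 2 ∨ orderOf c = 3 := by
      have h2 := hp.two_le
      have h4 : orderOf c ≠ 4 := fun h4 => by rw [h4] at hp; exact absurd hp (by norm_num)
      omega
    rcases h23 with h2 | h3
    · refine Cfsg.Agent.J4Type.DuadM24.card_fix_le hc ?_ ?_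
      · have := pow_orderOf_eq_one c
        rwa [h2, pow_two] at this
      · rintro rfl
        rw [orderOf_one] at h2
        omega
    · have h1 := H865.ThreeClasses.ncard_fx_conj
      obtain ⟨k, hk⟩ := H865.Three.conj_of_orderOf (g := ⟨c, hc⟩) (by rw [Subgroup.orderOf_mk]; exact h3)
      have h4 := h1 k (Subgroup.zpowers (⟨c, hc⟩ : M24))
      have h5 : (H865.ThreeClasses.fx (Subgroup.zpowers (⟨c, hc⟩ : M24))) =
          ((Finset.univ.filter fun p : GolayPt => c p = p : Finset GolayPt) : Set GolayPt) := by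
        ext p
        unfold H865.ThreeClasses.fx
        rw [Set.mem_ofPred_eq, Finset.mem_coe, Finset.mem_filter]
        constructor
        · intro h
          exact ⟨Finset.mem_univ _, h ⟨c, hc⟩ (Subgroup.mem_zpowers _)⟩
        · rintro ⟨-, h⟩ x hx
          obtain ⟨n, rfl⟩ := Subgroup.mem_zpowers_iff.1 hx
          have h6 : c ∈ MulAction.stabilizer (Equiv.Perm GolayPt) p := h
          exact Subgroup.zpow_mem _ h6 n
      rw [h5, Set.ncard_coe_finset, H865.ThreeClasses.conj_smul_zpowers] at h4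
      rcases hk with hk | hk
      · rw [hk, H865.ThreeClasses.ncard_fx_A] at h4
        omega
      · rw [hk, H865.ThreeClasses.ncard_fx_B] at h4
        omega
  · exact (fix_le_five (σ := ⟨c, hc⟩) hp h (by rw [Subgroup.orderOf_mk])).trans (by norm_num)

theorem dodecad_mem : Cfsg.Spor.squareDodecad ∈ Cfsg.dodecads := by
  have h : Cfsg.Spor.squareDodecad = Cfsg.Agent.SporadicA.M11Comp.sqD := by
    ext x
    rw [Cfsg.Agent.SporadicA.M11Comp.mem_sqD]
    revert x
    decide +kernel
  rw [h]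
  exact Cfsg.Agent.SporadicA.M11Comp.sqD_mem_dodecads

theorem card_dodecad : Cfsg.Spor.squareDodecad.card = 12 := by decide +kernel

/-- an element of `M12` other than 1 fixes at most four points of the dodecad -/
theorem fix_le_four {g : Equiv.Perm GolayPt} (hg : g ∈ Spor.M12) (hg1 : g ≠ 1) :
    (Cfsg.Spor.squareDodecad.filter fun x => g x = x).card ≤ 4 := by
  by_contra h
  push Not at h
  obtain ⟨S, hS, hS5⟩ := Finset.exists_subset_card_eq
    (show 5 ≤ (Cfsg.Spor.squareDodecad.filter fun x => g x = x).card by omega)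
  let e : Fin 5 ↪ GolayPt := (S.equivFinOfCardEq hS5).symm.toEmbedding.trans (Function.Embedding.subtype _)
  have he : ∀ i, e i ∈ S := fun i => ((S.equivFinOfCardEq hS5).symm i).2
  have hed : ∀ i, e i ∈ Cfsg.Spor.squareDodecad := fun i => (Finset.mem_filter.1 (hS (he i))).1
  obtain ⟨k, -, huniq⟩ := Cfsg.Agent.S0384.result _ dodecad_mem e e hed hed
  have h1 := huniq ⟨⟨g, hg.1⟩, hg.2⟩ (fun i => (Finset.mem_filter.1 (hS (he i))).2)
  have h2 := huniq 1 (fun i => rfl)
  apply hg1
  have h3 := h1.trans h2.symm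
  exact congrArg (fun k : MulAction.stabilizer Cfsg.M24 Cfsg.Spor.squareDodecad =>
    ((k : Cfsg.M24) : Equiv.Perm GolayPt)) h3

theorem map_dodecad {g : Equiv.Perm GolayPt} (hg : g ∈ Spor.M12) {x : GolayPt} (hx : x ∈ Cfsg.Spor.squareDodecad) :
    g x ∈ Cfsg.Spor.squareDodecad := by
  have h : g • Cfsg.Spor.squareDodecad = Cfsg.Spor.squareDodecad := hg.2
  have h1 := Finset.smul_mem_smul_finset (a := g) hx
  rw [h] at h1
  exact h1

/-! ### the image in the symmetric group -/

theorem map_card {T : Subgroup (Equiv.Perm GolayPt)} (A : Subgroup T) : Nat.card (A.map T.subtype) = Nat.card A :=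
  Nat.card_congr (Subgroup.equivMapOfInjective A T.subtype T.subtype_injective).symm.toEquiv

theorem ne_one_of_prime {c : Equiv.Perm GolayPt} (h : (orderOf c).Prime) : c ≠ 1 := by
  rintro rfl
  rw [orderOf_one] at h
  exact absurd h (by norm_num)

/-- odd prime divisors, subgroups of `M24` -/
theorem le_M24 {T : Subgroup (Equiv.Perm GolayPt)} (hT : T ≤ M24) {A : Subgroup T} (hA : IsMulCommutative A) {p : ℕ}
    (hp : p.Prime) (h3 : 3 ≤ p) (hpA : p ∣ Nat.card A) : Nat.card A ≤ 216 := by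
  rw [← map_card] at hpA ⊢
  refine le_24_8 (comm_map T.subtype hA) (S := Finset.univ) (fun _ _ _ _ => Finset.mem_univ _) hp hpA h3
    (by rw [Finset.card_univ, card24]) ?_
  rintro _ ⟨c, hc, rfl⟩ hcp
  exact fix_le (hT c.2) hcp

theorem le_M12 {A : Subgroup Spor.M12} (hA : IsMulCommutative A) {p : ℕ} (hp : p.Prime) (h3 : 3 ≤ p)
    (hpA : p ∣ Nat.card A) : Nat.card A ≤ 27 := by
  rw [← map_card] at hpA ⊢
  refine le_12_4 (comm_map _ hA) (S := Cfsg.Spor.squareDodecad) ?_ hp hpA h3 card_dodecad ?_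
  · rintro _ ⟨c, hc, rfl⟩ s hs
    exact map_dodecad c.2 hs
  · rintro _ ⟨c, hc, rfl⟩ hcp
    exact fix_le_four c.2 (ne_one_of_prime hcp)

theorem zero_mem : (some 0 : GolayPt) ∈ Cfsg.Spor.squareDodecad := by decide +kernel

theorem le_M11 {A : Subgroup Spor.M11} (hA : IsMulCommutative A) {p : ℕ} (hp : p.Prime) (h3 : 3 ≤ p)
    (hpA : p ∣ Nat.card A) : Nat.card A ≤ 18 := by
  rw [← map_card] at hpA ⊢
  refine le_11_3 (comm_map _ hA) (S := Cfsg.Spor.squareDodecad.erase (some 0)) ?_ hp hpA h3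
    (by rw [Finset.card_erase_of_mem zero_mem, card_dodecad]) ?_
  · rintro _ ⟨c, hc, rfl⟩ s hs
    rw [Finset.mem_erase] at hs ⊢
    have h0 : (c : Equiv.Perm GolayPt) (some 0) = some 0 := c.2.2
    refine ⟨fun h => hs.1 ?_, map_dodecad c.2.1 hs.2⟩
    exact (c : Equiv.Perm GolayPt).injective (h.trans h0.symm)
  · rintro _ ⟨c, hc, rfl⟩ hcp
    have h1 := fix_le_four c.2.1 (ne_one_of_prime hcp)
    have h0 : (c : Equiv.Perm GolayPt) (some 0) = some 0 := c.2.2
    have h2 : (some 0 : GolayPt) ∈ Cfsg.Spor.squareDodecad.filter fun x => (c : Equiv.Perm GolayPt) x = x :=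
      Finset.mem_filter.2 ⟨zero_mem, h0⟩
    have h3 : (Cfsg.Spor.squareDodecad.erase (some 0)).filter (fun s => (Spor.M11.subtype c) s = s) =
        (Cfsg.Spor.squareDodecad.filter fun x => (c : Equiv.Perm GolayPt) x = x).erase (some 0) := by
      ext s
      rw [Finset.mem_filter, Finset.mem_erase, Finset.mem_erase, Finset.mem_filter]
      exact ⟨fun h => ⟨h.1.1, h.1.2, h.2⟩, fun h => ⟨⟨h.1, h.2.1⟩, h.2.2⟩⟩
    rw [h3, Finset.card_erase_of_mem h2]
    exact Nat.sub_le_sub_right h1 1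

/-- the 22 points -/
def S22 : Finset GolayPt := (Finset.univ.erase none).erase (some 0)

theorem card_S22 : S22.card = 22 := by decide +kernel

theorem fix_S22 {c : Equiv.Perm GolayPt} (hc : c ∈ Spor.M22) (hcp : (orderOf c).Prime) :
    (S22.filter fun s => c s = s).card ≤ 6 := by
  have h1 := fix_le hc.1.1 hcp
  have h0 : c none = none := hc.1.2
  have h0' : c (some 0) = some 0 := hc.2
  have h2 : S22.filter (fun s => c s = s) ∪ {none, some 0} ⊆ Finset.univ.filter fun p : GolayPt => c p = p := by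
    intro s hs
    rw [Finset.mem_filter]
    refine ⟨Finset.mem_univ _, ?_⟩
    rcases Finset.mem_union.1 hs with h | h
    · exact (Finset.mem_filter.1 h).2
    · rw [Finset.mem_insert, Finset.mem_singleton] at h
      rcases h with rfl | rfl
      · exact h0
      · exact h0'
  have h3 : Disjoint (S22.filter fun s => c s = s) ({none, some 0} : Finset GolayPt) := by
    rw [Finset.disjoint_left]
    intro s hs hs'
    have h4 := (Finset.mem_filter.1 hs).1
    unfold S22 at h4
    rw [Finset.mem_erase, Finset.mem_erase] at h4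
    rw [Finset.mem_insert, Finset.mem_singleton] at hs'
    rcases hs' with h | h
    · exact h4.2.1 h
    · exact h4.1 h
  have h4 := Finset.card_le_card h2
  rw [Finset.card_union_of_disjoint h3, Finset.card_pair (by simp)] at h4
  omega

theorem map_S22 {c : Equiv.Perm GolayPt} (hc : c ∈ Spor.M22) {s : GolayPt} (hs : s ∈ S22) : c s ∈ S22 := by
  have h0 : c none = none := hc.1.2
  have h0' : c (some 0) = some 0 := hc.2
  unfold S22 at hs ⊢
  rw [Finset.mem_erase, Finset.mem_erase] at hs ⊢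
  refine ⟨fun h => hs.1 (c.injective (h.trans h0'.symm)), fun h => hs.2.1 (c.injective (h.trans h0.symm)),
    Finset.mem_univ _⟩

theorem le_M22 {A : Subgroup Spor.M22} (hA : IsMulCommutative A) (hd : Nat.card A ∣ 443520) {p : ℕ} (hp : p.Prime)
    (h3 : 3 ≤ p) (hpA : p ∣ Nat.card A) : Nat.card A ≤ 75 := by
  rw [← map_card] at hd hpA ⊢
  have hS : ∀ c ∈ A.map Spor.M22.subtype, ∀ s ∈ S22, c s ∈ S22 := by
    rintro _ ⟨c, hc, rfl⟩ s hs
    exact map_S22 c.2 hs
  have hf : ∀ c ∈ A.map Spor.M22.subtype, (orderOf c).Prime → (S22.filter fun s => c s = s).card ≤ 6 := by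
    rintro _ ⟨c, hc, rfl⟩ hcp
    exact fix_S22 c.2 hcp
  have hA' := comm_map Spor.M22.subtype hA
  by_cases h7 : 7 ∣ Nat.card (A.map Spor.M22.subtype)
  · exact (le_22_7 hA' hS (by norm_num) h7 le_rfl card_S22 hf).trans (by norm_num)
  by_cases h11 : 11 ∣ Nat.card (A.map Spor.M22.subtype)
  · exact (le_22_7 hA' hS (by norm_num) h11 (by norm_num) card_S22 hf).trans (by norm_num)
  by_cases h5 : 5 ∣ Nat.card (A.map Spor.M22.subtype)
  · exact le_22_5 hA' hS h5 rfl card_S22 hf
  have h1 : Nat.Coprime (Nat.card (A.map Spor.M22.subtype)) 385 := by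
    rw [show 385 = 5 * (7 * 11) by norm_num]
    exact Nat.Coprime.mul_right ((Nat.Prime.coprime_iff_not_dvd (by norm_num)).2 h5).symm
      (Nat.Coprime.mul_right ((Nat.Prime.coprime_iff_not_dvd (by norm_num)).2 h7).symm
        ((Nat.Prime.coprime_iff_not_dvd (by norm_num)).2 h11).symm)
  have h2 : Nat.card (A.map Spor.M22.subtype) ∣ 1152 := by
    rw [show 443520 = 1152 * 385 by norm_num] at hd
    exact h1.dvd_of_dvd_mul_right hd
  have hp3 : p = 3 := by
    have h4 : p ∣ 2 ^ 7 * 3 ^ 2 := by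
      have := hpA.trans h2
      norm_num
      exact this
    rcases hp.dvd_mul.1 h4 with h | h
    · have := (Nat.prime_dvd_prime_iff_eq hp Nat.prime_two).1 (hp.dvd_of_dvd_pow h)
      omega
    · exact (Nat.prime_dvd_prime_iff_eq hp Nat.prime_three).1 (hp.dvd_of_dvd_pow h)
  exact (le_22_3 hA' hS hpA hp3 card_S22 h2 hf).trans (by norm_num)

/-! ### a dihedral group of order 8 in `M22` -/

/-- a nonabelian 2-subgroup from `u² = 1`, `v⁴ = 1`, `u v u = v³` -/
theorem exists_two {G : Type*} [Group G] {u v : G} (hu : u * u = 1) (hv : v * v * (v * v) = 1)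
    (huv : u * v = v * (v * v) * u) (hne : u * v ≠ v * u) : ∃ Q : Subgroup G, IsPGroup 2 Q ∧ ¬ IsMulCommutative Q := by
  have hu2 : IsPGroup 2 (zpowers u) := by
    rintro ⟨x, hx⟩
    refine ⟨1, ?_⟩
    obtain ⟨m, rfl⟩ := Subgroup.mem_zpowers_iff.1 hx
    apply Subtype.ext
    show (u ^ m) ^ (2 ^ 1) = 1
    rw [pow_one, ← zpow_natCast, ← zpow_mul, mul_comm, zpow_mul]
    have : u ^ ((2 : ℕ) : ℤ) = 1 := by rw [zpow_natCast, pow_two, hu]
    rw [this, one_zpow]
  have hv4 : v ^ 4 = 1 := by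
    rw [show 4 = 2 * 2 from rfl, pow_mul, pow_two, pow_two, hv]
  have hv2 : IsPGroup 2 (zpowers v) := by
    rintro ⟨x, hx⟩
    refine ⟨2, ?_⟩
    obtain ⟨m, rfl⟩ := Subgroup.mem_zpowers_iff.1 hx
    apply Subtype.ext
    show (v ^ m) ^ (2 ^ 2) = 1
    rw [← zpow_natCast, ← zpow_mul, mul_comm, zpow_mul]
    have : v ^ ((2 ^ 2 : ℕ) : ℤ) = 1 := by rw [zpow_natCast]; exact hv4
    rw [this, one_zpow]
  have hui : u⁻¹ = u := inv_eq_of_mul_eq_one_left hu
  have hconj : u * v * u⁻¹ = v ^ 3 := by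
    rw [huv, mul_inv_cancel_right, pow_succ, pow_two, mul_assoc]
  have hle : zpowers u ≤ normalizer (zpowers v : Set G) := by
    rw [zpowers_le]
    have hmem : ∀ x ∈ zpowers v, u * x * u⁻¹ ∈ zpowers v := by
      intro x hx
      obtain ⟨n, rfl⟩ := Subgroup.mem_zpowers_iff.1 hx
      rw [← MulAut.conj_apply, map_zpow, MulAut.conj_apply, hconj]
      exact Subgroup.zpow_mem _ (Subgroup.pow_mem _ (mem_zpowers v) 3) n
    rw [Subgroup.mem_normalizer_iff]
    intro x
    constructor
    · intro hx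
      exact hmem x hx
    · intro hx
      have h1 := hmem _ hx
      have h2 : u * (u * x * u⁻¹) * u⁻¹ = x := by
        rw [hui]
        calc u * (u * x * u) * u = (u * u) * x * (u * u) := by group
          _ = x := by rw [hu, one_mul, mul_one]
      rwa [h2] at h1
  refine ⟨zpowers u ⊔ zpowers v, hu2.to_sup_of_normal_right' hv2 hle, fun h => hne ?_⟩
  exact comm_iff.1 h u (mem_sup_left (mem_zpowers u)) v (mem_sup_right (mem_zpowers v))

/-- a group with a nonabelian 2-subgroup: abelian subgroups do not have the full power of 2 -/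
theorem not_dvd_of_two {G : Type*} [Group G] [Finite G] {n m : ℕ} (hG : Nat.card G = 2 ^ (n + 1) * m) (hm : ¬ 2 ∣ m)
    (h : ∃ Q : Subgroup G, IsPGroup 2 Q ∧ ¬ IsMulCommutative Q) {A : Subgroup G} (hA : IsMulCommutative A) :
    ¬ 2 ^ (n + 1) ∣ Nat.card A := by
  obtain ⟨Q, hQ, hQn⟩ := h
  obtain ⟨P, hP⟩ := hQ.exists_le_sylow
  refine dvd_of_sylow P (fun h => hQn (comm_of_le hP h)) ?_ hA
  rw [P.card_eq_multiplicity, hG, Nat.factorization_mul (by positivity) (by rintro rfl; exact hm (dvd_zero _)),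
    Nat.factorization_pow]
  simp [Nat.Prime.factorization Nat.prime_two, Nat.factorization_eq_zero_of_not_dvd hm]

/-- an involution of `M22` -/
def cu : ℕ := 972770454313256898457466314500375616

/-- an element of order 4 of `M22` -/
def cv : ℕ := 965252010246855672105636304783616064

theorem oku : ok cu = true := by decide +kernel
theorem okv : ok cv = true := by decide +kernel

theorem rel_uu : el cu * el cu = 1 := by
  rw [← el_pcomp oku oku, show pcomp cu cu = idP by decide +kernel, el_idP]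

theorem rel_vv : el cv * el cv * (el cv * el cv) = 1 := by
  rw [← el_pcomp okv okv, ← el_pcomp (ok_pcomp okv okv) (ok_pcomp okv okv),
    show pcomp (pcomp cv cv) (pcomp cv cv) = idP by decide +kernel, el_idP]

theorem rel_uv : el cu * el cv = el cv * (el cv * el cv) * el cu := by
  rw [← el_pcomp oku okv, ← el_pcomp okv okv, ← el_pcomp okv (ok_pcomp okv okv),
    ← el_pcomp (ok_pcomp okv (ok_pcomp okv okv)) oku]
  congr 1

theorem ne_uv : el cu * el cv ≠ el cv * el cu := by
  intro h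
  rw [← el_pcomp oku okv, ← el_pcomp okv oku] at h
  have h1 : ∀ i : Fin 24, papp (pcomp cu cv) i = papp (pcomp cv cu) i := by
    intro i
    have h2 := congrArg (fun g : M24 => idx (g • pt (i : ℕ))) h
    simp only [idx_el_smul (ok_pcomp oku okv), idx_el_smul (ok_pcomp okv oku)] at h2
    rw [idx_pt i.2] at h2
    exact h2
  revert h1
  decide +kernel

theorem exists_el {c : ℕ} (hc : ok c = true) (h1 : papp c 23 = 23) (h2 : papp c 0 = 0) :
    ∃ x : Spor.M22, (⟨x.1, x.2.1.1⟩ : M24) = el c := by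
  have h3 : (el c : Equiv.Perm GolayPt) none = none := by
    have h := el_smul_pt hc (none : GolayPt)
    have e : idx none = 23 := rfl
    rw [e, h1] at h
    exact h
  have h4 : (el c : Equiv.Perm GolayPt) (some 0) = some 0 := by
    have h := el_smul_pt hc (some 0 : GolayPt)
    have e : idx (some 0) = 0 := rfl
    rw [e, h2] at h
    exact h
  exact ⟨⟨(el c : Equiv.Perm GolayPt), ⟨(el c).2, h3⟩, h4⟩, rfl⟩

theorem two_M24 : ∃ Q : Subgroup M24, IsPGroup 2 Q ∧ ¬ IsMulCommutative Q :=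
  exists_two rel_uu rel_vv rel_uv ne_uv

theorem two_M22 : ∃ Q : Subgroup Spor.M22, IsPGroup 2 Q ∧ ¬ IsMulCommutative Q := by
  let inc : Spor.M22 →* M24 :=
    { toFun := fun g => ⟨g.1, g.2.1.1⟩
      map_one' := rfl
      map_mul' := fun _ _ => rfl }
  have hinc : Function.Injective inc := by
    intro a b h
    exact Subtype.ext (congrArg (fun g : M24 => (g : Equiv.Perm GolayPt)) h)
  obtain ⟨u, hu⟩ := exists_el oku (by decide +kernel) (by decide +kernel)
  obtain ⟨v, hv⟩ := exists_el okv (by decide +kernel) (by decide +kernel)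
  have hu' : inc u = el cu := hu
  have hv' : inc v = el cv := hv
  refine exists_two (u := u) (v := v) (hinc ?_) (hinc ?_) (hinc ?_) fun h => ne_uv ?_
  · rw [map_mul, hu', map_one]
    exact rel_uu
  · rw [map_mul, map_mul, hv', map_one]
    exact rel_vv
  · rw [map_mul, map_mul, map_mul, map_mul, hu', hv']
    exact rel_uv
  · rw [← hu', ← hv', ← map_mul, h, map_mul]

/-! ### the rows -/

/-- odd primes bounded, 2-groups bounded -/
theorem ab3_of {G : Type*} [Group G] [Finite G] {a m N M : ℕ} (hG : Nat.card G = 2 ^ a * m) (hm : Odd m)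
    (hodd : ∀ A : Subgroup G, IsMulCommutative A → ∀ p : ℕ, p.Prime → 3 ≤ p → p ∣ Nat.card A → Nat.card A ≤ N)
    (htwo : ∀ A : Subgroup G, IsMulCommutative A → Nat.card A ∣ 2 ^ a → Nat.card A ≤ M)
    (hN : N ^ 3 < Nat.card G) (hM : M ^ 3 < Nat.card G) : Ab3 G := by
  intro A hA
  by_cases h : ∃ p, p.Prime ∧ 3 ≤ p ∧ p ∣ Nat.card A
  · obtain ⟨p, hp, h3, hpA⟩ := h
    exact (Nat.pow_le_pow_left (hodd A hA p hp h3 hpA) 3).trans_lt hN
  · push Not at h
    refine (Nat.pow_le_pow_left (htwo A hA ?_) 3).trans_lt hM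
    have h1 : Nat.Coprime (Nat.card A) m := by
      rw [Nat.Coprime, Nat.eq_one_iff_not_exists_prime_dvd]
      intro p hp hpd
      have h2 : p ≠ 2 := by
        rintro rfl
        exact (Nat.not_even_iff_odd.2 hm) (even_iff_two_dvd.2 (hpd.trans (Nat.gcd_dvd_right _ _)))
      have h3 := hp.two_le
      exact h p hp (by omega) (hpd.trans (Nat.gcd_dvd_left _ _))
    have h2 := Subgroup.card_subgroup_dvd_card A
    rw [hG] at h2
    exact h1.dvd_of_dvd_mul_right h2

theorem dvd_half {n c : ℕ} (h : c ∣ 2 ^ (n + 1)) (h' : ¬ 2 ^ (n + 1) ∣ c) : c ≤ 2 ^ n := by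
  obtain ⟨k, hk, rfl⟩ := (Nat.dvd_prime_pow Nat.prime_two).1 h
  refine Nat.pow_le_pow_right (by norm_num) ?_
  by_contra hlt
  have : k = n + 1 := by omega
  subst this
  exact h' dvd_rfl

theorem ab3_M24' : Ab3 M24 := by
  have hc : Nat.card M24 = 2 ^ 10 * 239085 := by
    rw [Cfsg.Agent.S0364.result]
    norm_num
  refine ab3_of (N := 216) (M := 2 ^ 9) hc (by decide) (fun A hA p hp h3 hpA => le_M24 le_rfl hA hp h3 hpA)
    (fun A hA h => dvd_half h (not_dvd_of_two hc (by norm_num) two_M24 hA)) (by rw [hc]; norm_num)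
    (by rw [hc]; norm_num)

theorem ab3_M23' : Ab3 Spor.M23 := by
  have hc : Nat.card Spor.M23 = 2 ^ 7 * 79695 := by
    rw [SporadicA.MathieuRecog.card_M23]
    norm_num
  have hfin : Finite Spor.M23 := Nat.finite_of_card_ne_zero (by rw [hc]; norm_num)
  exact ab3_of (N := 216) (M := 2 ^ 7) hc (by decide) (fun A hA p hp h3 hpA => le_M24 inf_le_left hA hp h3 hpA)
    (fun A hA h => Nat.le_of_dvd (by norm_num) h) (by rw [hc]; norm_num) (by rw [hc]; norm_num)

theorem ab3_M22' : Ab3 Spor.M22 := by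
  have hc : Nat.card Spor.M22 = 2 ^ 7 * 3465 := by
    rw [SporadicA.MathieuRecog.card_M22]
    norm_num
  have hfin : Finite Spor.M22 := Nat.finite_of_card_ne_zero (by rw [hc]; norm_num)
  refine ab3_of (N := 75) (M := 2 ^ 6) hc (by decide) (fun A hA p hp h3 hpA => le_M22 hA ?_ hp h3 hpA)
    (fun A hA h => dvd_half h (not_dvd_of_two hc (by norm_num) two_M22 hA)) (by rw [hc]; norm_num)
    (by rw [hc]; norm_num)
  have := Subgroup.card_subgroup_dvd_card A
  rw [hc] at this
  norm_num at this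
  exact this

theorem ab3_M12' : Ab3 Spor.M12 := by
  have hc : Nat.card Spor.M12 = 2 ^ 6 * 1485 := by
    rw [MTwelveType.SylowModel.card_M12]
    norm_num
  have hfin : Finite Spor.M12 := Nat.finite_of_card_ne_zero (by rw [hc]; norm_num)
  refine ab3_of (N := 27) (M := 2 ^ 5) hc (by decide) (fun A hA p hp h3 hpA => le_M12 hA hp h3 hpA)
    (fun A hA h => dvd_half h fun hd => ?_) (by rw [hc]; norm_num) (by rw [hc]; norm_num)
  have hy2 : IsPGroup 2 (zpowers CoThreeStd.MTwelve.y) := by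
    rintro ⟨x, hx⟩
    refine ⟨1, ?_⟩
    obtain ⟨m, rfl⟩ := Subgroup.mem_zpowers_iff.1 hx
    apply Subtype.ext
    show (CoThreeStd.MTwelve.y ^ m) ^ (2 ^ 1) = 1
    rw [pow_one, ← zpow_natCast, ← zpow_mul, mul_comm, zpow_mul]
    have : CoThreeStd.MTwelve.y ^ ((2 : ℕ) : ℤ) = 1 := by rw [zpow_natCast, pow_two, CoThreeStd.MTwelve.y_sq]
    rw [this, one_zpow]
  obtain ⟨P, hP⟩ := hy2.exists_le_sylow
  have hPc : Nat.card P = 2 ^ (5 + 1) := by
    rw [P.card_eq_multiplicity, hc, Nat.factorization_mul (by norm_num) (by norm_num), Nat.factorization_pow]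
    simp [Nat.Prime.factorization Nat.prime_two, Nat.factorization_eq_zero_of_not_dvd (show ¬ 2 ∣ 1485 by norm_num)]
  refine dvd_of_sylow P (fun hcomm => ?_) hPc hA hd
  have hle : (P : Subgroup Spor.M12) ≤ centralizer ({CoThreeStd.MTwelve.y} : Set Spor.M12) := by
    intro g hg
    rw [mem_centralizer_singleton_iff]
    exact comm_iff.1 hcomm g hg _ (hP (mem_zpowers _))
  have h1 := Subgroup.card_dvd_of_le hle
  have h2 : Nat.card (P : Subgroup Spor.M12) = 2 ^ (5 + 1) := hPc
  rw [h2, CoThreeStd.MTwelve.card_cent_y] at h1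
  norm_num at h1

theorem ab3_M11' {G : Type*} [Group G] [Finite G] (h : Cfsg.Spor.IsoM11 G) : Ab3 G := by
  have hc : Nat.card G = 2 ^ 4 * 495 := (UGT.End.MEleven.isM11 h).2
  obtain ⟨e⟩ := h
  refine Ab3.congr e.symm ?_
  rw [Nat.card_congr e.toEquiv] at hc
  have hfin : Finite Spor.M11 := Nat.finite_of_card_ne_zero (by rw [hc]; norm_num)
  exact ab3_of (N := 18) (M := 2 ^ 4) hc (by decide) (fun A hA p hp h3 hpA => le_M11 hA hp h3 hpA)
    (fun A hA h => Nat.le_of_dvd (by norm_num) h) (by rw [hc]; norm_num) (by rw [hc]; norm_num)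

theorem ab3_M11 {G : Type*} [Group G] [Finite G] [IsSimpleGroup G] (h : Cfsg.Spor.IsoM11 G) : Ab3 G := ab3_M11' h

theorem ab3_M12 {G : Type*} [Group G] [Finite G] [IsSimpleGroup G] (h : Cfsg.Spor.IsoM12 G) : Ab3 G := by
  obtain ⟨e⟩ := h
  exact Ab3.congr e.symm ab3_M12'

theorem ab3_M22 {G : Type*} [Group G] [Finite G] [IsSimpleGroup G] (h : Cfsg.Spor.IsoM22 G) : Ab3 G := by
  obtain ⟨e⟩ := h
  exact Ab3.congr e.symm ab3_M22'

theorem ab3_M23 {G : Type*} [Group G] [Finite G] [IsSimpleGroup G] (h : Cfsg.Spor.IsoM23 G) : Ab3 G := by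
  obtain ⟨e⟩ := h
  exact Ab3.congr e.symm ab3_M23'

theorem ab3_M24 {G : Type*} [Group G] [Finite G] [IsSimpleGroup G] (h : Cfsg.Spor.IsoM24 G) : Ab3 G := by
  obtain ⟨e⟩ := h
  exact Ab3.congr e.symm ab3_M24'

end Cfsg.Agent.H875.AbMathieu
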