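import Mathlib

/-!
# Abelian permutation groups whose elements of prime order fix few points (helper875)

`A ≤ Sym(α)` abelian, `S` an `A`-invariant set, every element of prime order of `A` fixes at most `f` points of `S`.

* `card_one`, `card_two`, `card_three` : `|A|` divides the product of the sizes of one, two, three orbits if these
  have more than `f` points in total;
* `dvd_orb` : the size of an orbit of a point moved by an element of order `p` is divisible by `p`;
* `le_24_8`, `le_22_6`, `le_12_4`, `le_11_3` : numerical consequences.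
-/

set_option autoImplicit false
set_option linter.unusedSectionVars false

namespace Cfsg.Agent.H875.AbPerm

open Subgroup

variable {α : Type*} [Fintype α] [DecidableEq α] {A : Subgroup (Equiv.Perm α)}

open Classical in
/-- the orbit -/
noncomputable def orb (A : Subgroup (Equiv.Perm α)) (a : α) : Finset α := Finset.univ.filter fun s => ∃ c ∈ A, c a = s

theorem mem_orb {a s : α} : s ∈ orb A a ↔ ∃ c ∈ A, c a = s := by
  classical
  unfold orb
  rw [Finset.mem_filter]
  exact ⟨fun h => h.2, fun h => ⟨Finset.mem_univ _, h⟩⟩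

theorem self_mem_orb (a : α) : a ∈ orb A a := mem_orb.2 ⟨1, A.one_mem, rfl⟩

theorem disjoint_orb {a b : α} (h : b ∉ orb A a) : Disjoint (orb A a) (orb A b) := by
  rw [Finset.disjoint_left]
  intro s hs hs'
  obtain ⟨c, hc, rfl⟩ := mem_orb.1 hs
  obtain ⟨d, hd, hdc⟩ := mem_orb.1 hs'
  apply h
  refine mem_orb.2 ⟨d⁻¹ * c, A.mul_mem (A.inv_mem hd) hc, ?_⟩
  rw [Equiv.Perm.mul_apply, ← hdc]
  exact Equiv.symm_apply_apply _ _

theorem card_orb (a : α) : (orb A a).card = (MulAction.stabilizer A a).index := by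
  rw [MulAction.index_stabilizer, ← Set.ncard_coe_finset]
  congr 1
  ext s
  rw [Finset.mem_coe, mem_orb]
  constructor
  · rintro ⟨c, hc, rfl⟩
    exact ⟨⟨c, hc⟩, rfl⟩
  · rintro ⟨c, rfl⟩
    exact ⟨c, c.2, rfl⟩

section comm

variable (hA : IsMulCommutative A)
include hA

theorem comm {c d : Equiv.Perm α} (hc : c ∈ A) (hd : d ∈ A) : c * d = d * c :=
  congrArg Subtype.val (hA.is_comm.comm ⟨c, hc⟩ ⟨d, hd⟩)

theorem normal (H : Subgroup A) : H.Normal := by
  refine ⟨fun n hn g => ?_⟩
  rw [hA.is_comm.comm g n, mul_inv_cancel_right]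
  exact hn

theorem fix_of_mem {a s : α} {c : A} (hc : c ∈ MulAction.stabilizer A a) (hs : s ∈ orb A a) : (c : Equiv.Perm α) s = s := by
  obtain ⟨d, hd, rfl⟩ := mem_orb.1 hs
  have h1 : (c : Equiv.Perm α) a = a := hc
  rw [← Equiv.Perm.mul_apply, comm hA c.2 hd, Equiv.Perm.mul_apply, h1]

theorem index_inf_dvd (H K : Subgroup A) : (H ⊓ K).index ∣ H.index * K.index := by
  have := normal hA K
  have h1 : (H ⊓ K).relIndex H * H.index = (H ⊓ K).index := relIndex_mul_index inf_le_left
  have h2 : (H ⊓ K).relIndex H = K.relIndex H := inf_relIndex_left H K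
  rw [← h1, h2, mul_comm]
  exact Nat.mul_dvd_mul_left _ (relIndex_dvd_index_of_normal K H)

theorem dvd_orb {p : ℕ} (hp : p.Prime) {x : Equiv.Perm α} (hx : x ∈ A) (hxp : orderOf x = p) {a : α} (ha : x a ≠ a) :
    p ∣ (orb A a).card := by
  rw [card_orb]
  by_contra h
  have := normal hA (MulAction.stabilizer A a)
  have h1 := (MulAction.stabilizer A a).pow_index_mem (⟨x, hx⟩ : A)
  set n := (MulAction.stabilizer A a).index with hn
  have h2 : Nat.Coprime n p := ((Nat.Prime.coprime_iff_not_dvd hp).2 h).symm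
  have h3 : x ^ n ∈ MulAction.stabilizer (Equiv.Perm α) a := by
    have h4 := MulAction.mem_stabilizer_iff.1 h1
    exact MulAction.mem_stabilizer_iff.2 h4
  have h4 : x ∈ MulAction.stabilizer (Equiv.Perm α) a := by
    obtain ⟨m, hm⟩ := exists_pow_eq_self_of_coprime (x := x) (n := n) (by rw [hxp]; exact h2)
    rw [← hm]
    exact Subgroup.pow_mem _ h3 m
  exact ha (MulAction.mem_stabilizer_iff.1 h4)

variable {S : Finset α} (hS : ∀ c ∈ A, ∀ s ∈ S, c s ∈ S) {f : ℕ}
  (hf : ∀ c ∈ A, (orderOf c).Prime → (S.filter fun s => c s = s).card ≤ f)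
include hf

omit hA in
theorem eq_bot_of (K : Subgroup A) {T : Finset α} (hT : T ⊆ S) (h : ∀ c ∈ K, ∀ s ∈ T, (c : Equiv.Perm α) s = s)
    (hc : f < T.card) : K = ⊥ := by
  by_contra hne
  have h1 : Nat.card K ≠ 1 := fun h => hne (Subgroup.card_eq_one.1 h)
  have hp := Nat.minFac_prime h1
  have : Fact (Nat.card K).minFac.Prime := ⟨hp⟩
  obtain ⟨c, hc'⟩ := exists_prime_orderOf_dvd_card' (G := K) _ (Nat.minFac_dvd (Nat.card K))
  have h2 := hf (c : A) (c : A).2 (by rw [Subgroup.orderOf_coe, Subgroup.orderOf_coe, hc']; exact hp)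
  have h3 : T ⊆ S.filter fun s => ((c : A) : Equiv.Perm α) s = s := by
    intro s hs
    exact Finset.mem_filter.2 ⟨hT hs, h _ c.2 s hs⟩
  have := Finset.card_le_card h3
  omega

omit hA in
theorem exists_moved {x : Equiv.Perm α} (hx : x ∈ A) (hxp : (orderOf x).Prime) {T : Finset α}
    (hT : T.card + f < S.card) : ∃ b ∈ S, b ∉ T ∧ x b ≠ b := by
  by_contra hcon
  push Not at hcon
  have h1 : S ⊆ T ∪ S.filter fun s => x s = s := by
    intro s hs
    rw [Finset.mem_union, Finset.mem_filter]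
    by_cases h : s ∈ T
    · exact Or.inl h
    · exact Or.inr ⟨hs, hcon s hs h⟩
  have h2 := (Finset.card_le_card h1).trans (Finset.card_union_le _ _)
  have h3 := hf x hx hxp
  omega

include hS

omit hA hf in
theorem orb_subset {a : α} (ha : a ∈ S) : orb A a ⊆ S := by
  intro s hs
  obtain ⟨c, hc, rfl⟩ := mem_orb.1 hs
  exact hS c hc a ha

theorem card_one {a : α} (ha : a ∈ S) (h : f < (orb A a).card) : Nat.card A = (orb A a).card := by
  have h1 := eq_bot_of hf (MulAction.stabilizer A a) (orb_subset hS ha) (fun c hc s hs => fix_of_mem hA hc hs) h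
  rw [card_orb, h1, index_bot]

theorem card_two {a b : α} (ha : a ∈ S) (hb : b ∈ S) (hab : b ∉ orb A a)
    (h : f < (orb A a).card + (orb A b).card) : Nat.card A ∣ (orb A a).card * (orb A b).card := by
  have h1 := eq_bot_of hf (MulAction.stabilizer A a ⊓ MulAction.stabilizer A b) (T := orb A a ∪ orb A b)
    (Finset.union_subset (orb_subset hS ha) (orb_subset hS hb)) (fun c hc s hs => by
      rcases Finset.mem_union.1 hs with h | h
      · exact fix_of_mem hA hc.1 h
      · exact fix_of_mem hA hc.2 h) (by rwa [Finset.card_union_of_disjoint (disjoint_orb hab)])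
  have h2 := index_inf_dvd hA (MulAction.stabilizer A a) (MulAction.stabilizer A b)
  rw [h1, index_bot] at h2
  rw [card_orb, card_orb]
  exact h2

theorem card_three {a b d : α} (ha : a ∈ S) (hb : b ∈ S) (hd : d ∈ S) (hab : b ∉ orb A a)
    (hd' : d ∉ orb A a ∪ orb A b) (h : f < (orb A a).card + (orb A b).card + (orb A d).card) :
    Nat.card A ∣ (orb A a).card * (orb A b).card * (orb A d).card := by
  rw [Finset.mem_union, not_or] at hd'
  have h1 := eq_bot_of hf (MulAction.stabilizer A a ⊓ MulAction.stabilizer A b ⊓ MulAction.stabilizer A d)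
    (T := orb A a ∪ orb A b ∪ orb A d)
    (Finset.union_subset (Finset.union_subset (orb_subset hS ha) (orb_subset hS hb)) (orb_subset hS hd))
    (fun c hc s hs => by
      rcases Finset.mem_union.1 hs with h | h
      · rcases Finset.mem_union.1 h with h | h
        · exact fix_of_mem hA hc.1.1 h
        · exact fix_of_mem hA hc.1.2 h
      · exact fix_of_mem hA hc.2 h) (by
      rwa [Finset.card_union_of_disjoint (Finset.disjoint_union_left.2 ⟨disjoint_orb hd'.1, disjoint_orb hd'.2⟩),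
        Finset.card_union_of_disjoint (disjoint_orb hab)])
  have h2 := index_inf_dvd hA (MulAction.stabilizer A a) (MulAction.stabilizer A b)
  have h3 := index_inf_dvd hA (MulAction.stabilizer A a ⊓ MulAction.stabilizer A b) (MulAction.stabilizer A d)
  rw [h1, index_bot] at h3
  rw [card_orb, card_orb, card_orb]
  exact h3.trans (Nat.mul_dvd_mul_right h2 _)

omit hA hf in
theorem card_add_le {a b : α} (ha : a ∈ S) (hb : b ∈ S) (hab : b ∉ orb A a) :
    (orb A a).card + (orb A b).card ≤ S.card := by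
  rw [← Finset.card_union_of_disjoint (disjoint_orb hab)]
  exact Finset.card_le_card (Finset.union_subset (orb_subset hS ha) (orb_subset hS hb))

omit hA hf in
theorem card_add_add_le {a b d : α} (ha : a ∈ S) (hb : b ∈ S) (hd : d ∈ S) (hab : b ∉ orb A a)
    (hd' : d ∉ orb A a ∪ orb A b) : (orb A a).card + (orb A b).card + (orb A d).card ≤ S.card := by
  rw [Finset.mem_union, not_or] at hd'
  rw [← Finset.card_union_of_disjoint (disjoint_orb hab), ← Finset.card_union_of_disjoint
    (Finset.disjoint_union_left.2 ⟨disjoint_orb hd'.1, disjoint_orb hd'.2⟩)]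
  exact Finset.card_le_card
    (Finset.union_subset (Finset.union_subset (orb_subset hS ha) (orb_subset hS hb)) (orb_subset hS hd))

end comm

/-! ### numerical consequences -/

section num

variable (hA : IsMulCommutative A) {S : Finset α} (hS : ∀ c ∈ A, ∀ s ∈ S, c s ∈ S) {p : ℕ} (hp : p.Prime)
  (hpA : p ∣ Nat.card A)
include hp hpA

theorem exists_x : ∃ x ∈ A, orderOf x = p := by
  have : Fact p.Prime := ⟨hp⟩
  obtain ⟨x, hx⟩ := exists_prime_orderOf_dvd_card' (G := A) p hpA
  exact ⟨x, x.2, by rw [Subgroup.orderOf_coe, hx]⟩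

include hA hS

theorem le_24_8 (h3 : 3 ≤ p) (hn : S.card = 24)
    (hf : ∀ c ∈ A, (orderOf c).Prime → (S.filter fun s => c s = s).card ≤ 8) : Nat.card A ≤ 216 := by
  obtain ⟨x, hx, hxp⟩ := exists_x hp hpA
  have hxp' : (orderOf x).Prime := by rw [hxp]; exact hp
  obtain ⟨a, ha, -, hxa⟩ := exists_moved hf hx hxp' (T := ∅) (by rw [hn]; simp)
  have hle : ∀ {a : α}, a ∈ S → (orb A a).card ≤ 24 := fun ha => hn ▸ Finset.card_le_card (orb_subset hS ha)
  obtain ⟨u, hu⟩ := dvd_orb hA hp hx hxp hxa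
  rcases Nat.lt_or_ge 8 (orb A a).card with h1 | h1
  · rw [card_one hA hS hf ha h1]
    have := hle ha
    omega
  obtain ⟨b, hb, hba, hxb⟩ := exists_moved hf hx hxp' (T := orb A a) (by rw [hn]; omega)
  obtain ⟨v, hv⟩ := dvd_orb hA hp hx hxp hxb
  have hb24 := hle hb
  have ha0 : 0 < (orb A a).card := Finset.card_pos.2 ⟨a, self_mem_orb a⟩
  have hb0 : 0 < (orb A b).card := Finset.card_pos.2 ⟨b, self_mem_orb b⟩
  rcases Nat.lt_or_ge 8 ((orb A a).card + (orb A b).card) with h2 | h2
  · have h3 := Nat.le_of_dvd (Nat.mul_pos ha0 hb0) (card_two hA hS hf ha hb hba h2)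
    have h4 := Nat.mul_le_mul h1 hb24
    omega
  have hu0 : 0 < u := Nat.pos_of_ne_zero (by rintro rfl; omega)
  have hv0 : 0 < v := Nat.pos_of_ne_zero (by rintro rfl; omega)
  obtain ⟨d, hd, hda, hxd⟩ := exists_moved hf hx hxp' (T := orb A a ∪ orb A b) (by
    rw [hn, Finset.card_union_of_disjoint (disjoint_orb hba)]
    omega)
  obtain ⟨w, hw⟩ := dvd_orb hA hp hx hxp hxd
  have hd24 := hle hd
  have hd0 : 0 < (orb A d).card := Finset.card_pos.2 ⟨d, self_mem_orb d⟩
  have hw0 : 0 < w := Nat.pos_of_ne_zero (by rintro rfl; omega)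
  have hau : 3 ≤ (orb A a).card := by rw [hu]; nlinarith
  have hbu : 3 ≤ (orb A b).card := by rw [hv]; nlinarith
  have hdu : 3 ≤ (orb A d).card := by rw [hw]; nlinarith
  have h5 := Nat.le_of_dvd (Nat.mul_pos (Nat.mul_pos ha0 hb0) hd0) (card_three hA hS hf ha hb hd hba hda (by omega))
  have hp4 : p ≤ 4 := by
    by_contra hlt
    have : 5 ≤ (orb A a).card := by rw [hu]; nlinarith
    have : 5 ≤ (orb A b).card := by rw [hv]; nlinarith
    omega
  have hp3 : p = 3 := by
    have : p ≠ 4 := by rintro rfl; exact absurd hp (by norm_num)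
    omega
  subst hp3
  have h6 : (orb A a).card = 3 := by omega
  have h7 : (orb A b).card = 3 := by omega
  rw [h6, h7] at h5
  omega

theorem le_12_4 (h3 : 3 ≤ p) (hn : S.card = 12)
    (hf : ∀ c ∈ A, (orderOf c).Prime → (S.filter fun s => c s = s).card ≤ 4) : Nat.card A ≤ 27 := by
  obtain ⟨x, hx, hxp⟩ := exists_x hp hpA
  have hxp' : (orderOf x).Prime := by rw [hxp]; exact hp
  obtain ⟨a, ha, -, hxa⟩ := exists_moved hf hx hxp' (T := ∅) (by rw [hn]; simp)
  have hle : ∀ {a : α}, a ∈ S → (orb A a).card ≤ 12 := fun ha => hn ▸ Finset.card_le_card (orb_subset hS ha)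
  obtain ⟨u, hu⟩ := dvd_orb hA hp hx hxp hxa
  rcases Nat.lt_or_ge 4 (orb A a).card with h1 | h1
  · rw [card_one hA hS hf ha h1]
    have := hle ha
    omega
  have ha0 : 0 < (orb A a).card := Finset.card_pos.2 ⟨a, self_mem_orb a⟩
  have hu0 : 0 < u := Nat.pos_of_ne_zero (by rintro rfl; omega)
  have hau : 3 ≤ (orb A a).card := by rw [hu]; nlinarith
  obtain ⟨b, hb, hba, hxb⟩ := exists_moved hf hx hxp' (T := orb A a) (by rw [hn]; omega)
  obtain ⟨v, hv⟩ := dvd_orb hA hp hx hxp hxb
  have hb0 : 0 < (orb A b).card := Finset.card_pos.2 ⟨b, self_mem_orb b⟩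
  have hv0 : 0 < v := Nat.pos_of_ne_zero (by rintro rfl; omega)
  have hbu : 3 ≤ (orb A b).card := by rw [hv]; nlinarith
  have hab := card_add_le hS ha hb hba
  rw [hn] at hab
  have hp4 : p ≤ 4 := by
    by_contra hlt
    have : 5 ≤ (orb A a).card := by rw [hu]; nlinarith
    omega
  have hp3 : p = 3 := by
    have : p ≠ 4 := by rintro rfl; exact absurd hp (by norm_num)
    omega
  subst hp3
  have h6 : (orb A a).card = 3 := by omega
  have h5 := Nat.le_of_dvd (Nat.mul_pos ha0 hb0) (card_two hA hS hf ha hb hba (by omega))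
  rw [h6] at h5
  omega

theorem le_11_3 (h3 : 3 ≤ p) (hn : S.card = 11)
    (hf : ∀ c ∈ A, (orderOf c).Prime → (S.filter fun s => c s = s).card ≤ 3) : Nat.card A ≤ 18 := by
  obtain ⟨x, hx, hxp⟩ := exists_x hp hpA
  have hxp' : (orderOf x).Prime := by rw [hxp]; exact hp
  obtain ⟨a, ha, -, hxa⟩ := exists_moved hf hx hxp' (T := ∅) (by rw [hn]; simp)
  have hle : ∀ {a : α}, a ∈ S → (orb A a).card ≤ 11 := fun ha => hn ▸ Finset.card_le_card (orb_subset hS ha)
  obtain ⟨u, hu⟩ := dvd_orb hA hp hx hxp hxa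
  rcases Nat.lt_or_ge 3 (orb A a).card with h1 | h1
  · rw [card_one hA hS hf ha h1]
    have := hle ha
    omega
  have ha0 : 0 < (orb A a).card := Finset.card_pos.2 ⟨a, self_mem_orb a⟩
  have hu0 : 0 < u := Nat.pos_of_ne_zero (by rintro rfl; omega)
  have hau : 3 ≤ (orb A a).card := by rw [hu]; nlinarith
  obtain ⟨b, hb, hba, hxb⟩ := exists_moved hf hx hxp' (T := orb A a) (by rw [hn]; omega)
  obtain ⟨v, hv⟩ := dvd_orb hA hp hx hxp hxb
  have hb0 : 0 < (orb A b).card := Finset.card_pos.2 ⟨b, self_mem_orb b⟩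
  have hv0 : 0 < v := Nat.pos_of_ne_zero (by rintro rfl; omega)
  have hbu : 3 ≤ (orb A b).card := by rw [hv]; nlinarith
  have hab := card_add_le hS ha hb hba
  rw [hn] at hab
  have hp3 : p = 3 := by
    by_contra hne
    have : 4 ≤ (orb A a).card := by rw [hu]; nlinarith [show 4 ≤ p by omega]
    omega
  subst hp3
  have h6 : (orb A a).card = 3 := by omega
  have h5 := Nat.le_of_dvd (Nat.mul_pos ha0 hb0) (card_two hA hS hf ha hb hba (by omega))
  rw [h6] at h5
  omega

theorem le_22_7 (h7 : 7 ≤ p) (hn : S.card = 22)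
    (hf : ∀ c ∈ A, (orderOf c).Prime → (S.filter fun s => c s = s).card ≤ 6) : Nat.card A ≤ 22 := by
  obtain ⟨x, hx, hxp⟩ := exists_x hp hpA
  have hxp' : (orderOf x).Prime := by rw [hxp]; exact hp
  obtain ⟨a, ha, -, hxa⟩ := exists_moved hf hx hxp' (T := ∅) (by rw [hn]; simp)
  obtain ⟨u, hu⟩ := dvd_orb hA hp hx hxp hxa
  have ha0 : 0 < (orb A a).card := Finset.card_pos.2 ⟨a, self_mem_orb a⟩
  have hu0 : 0 < u := Nat.pos_of_ne_zero (by rintro rfl; omega)
  have hau : 7 ≤ (orb A a).card := by rw [hu]; nlinarith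
  rw [card_one hA hS hf ha (by omega), ← hn]
  exact Finset.card_le_card (orb_subset hS ha)

omit hp in
theorem le_22_5 (h5 : p = 5) (hn : S.card = 22)
    (hf : ∀ c ∈ A, (orderOf c).Prime → (S.filter fun s => c s = s).card ≤ 6) : Nat.card A ≤ 75 := by
  subst h5
  have hp : Nat.Prime 5 := by norm_num
  obtain ⟨x, hx, hxp⟩ := exists_x hp hpA
  have hxp' : (orderOf x).Prime := by rw [hxp]; exact hp
  obtain ⟨a, ha, -, hxa⟩ := exists_moved hf hx hxp' (T := ∅) (by rw [hn]; simp)
  obtain ⟨u, hu⟩ := dvd_orb hA hp hx hxp hxa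
  have ha0 : 0 < (orb A a).card := Finset.card_pos.2 ⟨a, self_mem_orb a⟩
  rcases Nat.lt_or_ge 6 (orb A a).card with h1 | h1
  · rw [card_one hA hS hf ha h1]
    exact (Finset.card_le_card (orb_subset hS ha)).trans (by omega)
  obtain ⟨b, hb, hba, hxb⟩ := exists_moved hf hx hxp' (T := orb A a) (by rw [hn]; omega)
  obtain ⟨v, hv⟩ := dvd_orb hA hp hx hxp hxb
  have hb0 : 0 < (orb A b).card := Finset.card_pos.2 ⟨b, self_mem_orb b⟩
  have hab := card_add_le hS ha hb hba
  rw [hn] at hab
  have h6 : (orb A a).card = 5 := by omega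
  have h5 := Nat.le_of_dvd (Nat.mul_pos ha0 hb0) (card_two hA hS hf ha hb hba (by omega))
  rw [h6] at h5
  omega

omit hp in
theorem le_22_3 (h3 : p = 3) (hn : S.card = 22) (hd : Nat.card A ∣ 1152)
    (hf : ∀ c ∈ A, (orderOf c).Prime → (S.filter fun s => c s = s).card ≤ 6) : Nat.card A ≤ 72 := by
  subst h3
  have hp : Nat.Prime 3 := by norm_num
  obtain ⟨x, hx, hxp⟩ := exists_x hp hpA
  have hxp' : (orderOf x).Prime := by rw [hxp]; exact hp
  obtain ⟨a, ha, -, hxa⟩ := exists_moved hf hx hxp' (T := ∅) (by rw [hn]; simp)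
  obtain ⟨u, hu⟩ := dvd_orb hA hp hx hxp hxa
  have ha0 : 0 < (orb A a).card := Finset.card_pos.2 ⟨a, self_mem_orb a⟩
  have hdv : ∀ s : α, (orb A s).card ∣ 1152 := by
    intro s
    rw [card_orb]
    exact (Subgroup.index_dvd_card _).trans hd
  rcases Nat.lt_or_ge 6 (orb A a).card with h1 | h1
  · rw [card_one hA hS hf ha h1]
    exact (Finset.card_le_card (orb_subset hS ha)).trans (by omega)
  obtain ⟨b, hb, hba, hxb⟩ := exists_moved hf hx hxp' (T := orb A a) (by rw [hn]; omega)
  obtain ⟨v, hv⟩ := dvd_orb hA hp hx hxp hxb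
  have hb0 : 0 < (orb A b).card := Finset.card_pos.2 ⟨b, self_mem_orb b⟩
  have hab := card_add_le hS ha hb hba
  rw [hn] at hab
  have hdb := hdv b
  rcases Nat.lt_or_ge 6 ((orb A a).card + (orb A b).card) with h2 | h2
  · have h5 := Nat.le_of_dvd (Nat.mul_pos ha0 hb0) (card_two hA hS hf ha hb hba h2)
    have h6 : (orb A a).card = 3 ∨ (orb A a).card = 6 := by omega
    rcases h6 with h6 | h6
    · rw [h6] at h5
      omega
    · rw [h6] at h5 hab
      have h7 : (orb A b).card ≠ 15 := by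
        intro h7
        rw [h7] at hdb
        norm_num at hdb
      omega
  · have h6 : (orb A a).card = 3 := by omega
    have h7 : (orb A b).card = 3 := by omega
    obtain ⟨d, hd', hda, hxd⟩ := exists_moved hf hx hxp' (T := orb A a ∪ orb A b) (by
      rw [hn, Finset.card_union_of_disjoint (disjoint_orb hba)]
      omega)
    obtain ⟨w, hw⟩ := dvd_orb hA hp hx hxp hxd
    have hd0 : 0 < (orb A d).card := Finset.card_pos.2 ⟨d, self_mem_orb d⟩
    have h8 := card_three hA hS hf ha hb hd' hba hda (by omega)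
    have habd := card_add_add_le hS ha hb hd' hba hda
    rw [hn, h6, h7] at habd
    rw [h6, h7] at h8
    have hdd := hdv d
    have hw5 : w ≤ 5 := by omega
    have h9 : Nat.card A ∣ Nat.gcd (3 * 3 * (orb A d).card) 1152 := Nat.dvd_gcd h8 hd
    rw [hw] at h9 hdd hd0
    have hw0 : w ≠ 0 := by rintro rfl; omega
    interval_cases w
    · omega
    · exact (Nat.le_of_dvd (by norm_num) h9).trans (by decide)
    · exact (Nat.le_of_dvd (by norm_num) h9).trans (by decide)
    · exact (Nat.le_of_dvd (by norm_num) h9).trans (by decide)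
    · exact (Nat.le_of_dvd (by norm_num) h9).trans (by decide)
    · norm_num at hdd

end num

end Cfsg.Agent.H875.AbPerm
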