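import Mathlib
import Cfsg.Prelude.Def_Classical
import Cfsg.Agent.H430.CfBase
import Cfsg.Agent.ClassicalGeometry.AutPSL.Main
import Cfsg.Agent.S2140
import Cfsg.Agent.S0806
import Cfsg.Agent.H934.IdxSL
import Cfsg.Agent.SmallSimple.PSLTwoPart

/-!
# The row of the linear groups for S5880
-/

set_option autoImplicit false

namespace Cfsg.Agent.H875.RowPSL

open Matrix Cfsg Cfsg.Agent.H430.CfBase
open Cfsg.Agent.ClassicalGeometry.AutPSL.Root
open Cfsg.Agent.ClassicalGeometry.AutPSL.Auto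
open Cfsg.Agent.ClassicalGeometry.AutPSL.Frame

section basic

variable {ι F : Type*} [Fintype ι] [DecidableEq ι] [Field F]

/-- The stabiliser of the point `⟨a⟩`. -/
def P (a : ι → F) : Subgroup (SpecialLinearGroup ι F) where
  carrier := {g | ∃ c : F, c ≠ 0 ∧ (g : Matrix ι ι F) *ᵥ a = c • a}
  one_mem' := ⟨1, one_ne_zero, by simp⟩
  mul_mem' := by
    rintro g h ⟨c, hc, h1⟩ ⟨d, hd, h2⟩
    refine ⟨c * d, mul_ne_zero hc hd, ?_⟩
    rw [sl_mul_mulVec, h2, mulVec_smul, h1, smul_smul, mul_comm]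
  inv_mem' := by
    rintro g ⟨c, hc, h1⟩
    refine ⟨c⁻¹, inv_ne_zero hc, ?_⟩
    have h2 : ((g⁻¹ : SpecialLinearGroup ι F) : Matrix ι ι F) *ᵥ ((g : Matrix ι ι F) *ᵥ a) = a := by
      rw [← sl_mul_mulVec, inv_mul_cancel, Matrix.SpecialLinearGroup.coe_one, one_mulVec]
    rw [h1, mulVec_smul] at h2
    rw [← h2, smul_smul, inv_mul_cancel₀ hc, one_smul, h2]

/-- The stabiliser of the hyperplane `φ = 0`. -/
def H (φ : ι → F) : Subgroup (SpecialLinearGroup ι F) where
  carrier := {g | ∃ c : F, c ≠ 0 ∧ φ ᵥ* (g : Matrix ι ι F) = c • φ}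
  one_mem' := ⟨1, one_ne_zero, by simp⟩
  mul_mem' := by
    rintro g h ⟨c, hc, h1⟩ ⟨d, hd, h2⟩
    refine ⟨c * d, mul_ne_zero hc hd, ?_⟩
    rw [Matrix.SpecialLinearGroup.coe_mul, ← vecMul_vecMul, h1, smul_vecMul, h2, smul_smul]
  inv_mem' := by
    rintro g ⟨c, hc, h1⟩
    refine ⟨c⁻¹, inv_ne_zero hc, ?_⟩
    have h2 : (φ ᵥ* (g : Matrix ι ι F)) ᵥ* ((g⁻¹ : SpecialLinearGroup ι F) : Matrix ι ι F) = φ := by
      rw [vecMul_vecMul, ← Matrix.SpecialLinearGroup.coe_mul, mul_inv_cancel, Matrix.SpecialLinearGroup.coe_one,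
        vecMul_one]
    rw [h1, smul_vecMul] at h2
    rw [← h2, smul_smul, inv_mul_cancel₀ hc, one_smul, h2]

theorem mem_P {a : ι → F} {g : SpecialLinearGroup ι F} :
    g ∈ P a ↔ ∃ c : F, c ≠ 0 ∧ (g : Matrix ι ι F) *ᵥ a = c • a := Iff.rfl

theorem mem_H {φ : ι → F} {g : SpecialLinearGroup ι F} :
    g ∈ H φ ↔ ∃ c : F, c ≠ 0 ∧ φ ᵥ* (g : Matrix ι ι F) = c • φ := Iff.rfl

theorem H_eq (φ : ι → F) : H φ = (P φ).map (itr : MulAut (SpecialLinearGroup ι F)).toMonoidHom := by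
  ext g
  constructor
  · rintro ⟨c, hc, h⟩
    refine ⟨itr g, ?_, ?_⟩
    · refine (P φ).inv_mem_iff.1 ⟨c, hc, ?_⟩
      have h1 : ((itr g)⁻¹ : SpecialLinearGroup ι F) = g.transpose := by
        rw [← map_inv]
        apply Subtype.ext
        rw [coe_itr, inv_inv]
        rfl
      rw [h1]
      show (g : Matrix ι ι F)ᵀ *ᵥ φ = c • φ
      rw [mulVec_transpose, h]
    · show (itr * itr : MulAut (SpecialLinearGroup ι F)) g = g
      rw [itr_mul_itr]; rfl
  · rintro ⟨g, ⟨c, hc, h⟩, rfl⟩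
    refine (H φ).inv_mem_iff.1 ⟨c, hc, ?_⟩
    have h1 : ((itr g)⁻¹ : SpecialLinearGroup ι F) = g.transpose := by
      rw [← map_inv]
      apply Subtype.ext
      rw [coe_itr, inv_inv]
      rfl
    show φ ᵥ* (((itr g)⁻¹ : SpecialLinearGroup ι F) : Matrix ι ι F) = c • φ
    rw [h1]
    show φ ᵥ* (g : Matrix ι ι F)ᵀ = c • φ
    rw [vecMul_transpose, h]

theorem index_H (φ : ι → F) : (H φ).index = (P φ).index := by
  rw [H_eq, index_map_aut]

theorem P_cj (A : GL ι F) (a : ι → F) :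
    (P a).map (cj A).toMonoidHom ≤ P ((A : Matrix ι ι F) *ᵥ a) := by
  rintro _ ⟨g, ⟨c, hc, h⟩, rfl⟩
  refine ⟨c, hc, ?_⟩
  show ((A : Matrix ι ι F) * g.1 * ((A⁻¹ : GL ι F) : Matrix ι ι F)) *ᵥ ((A : Matrix ι ι F) *ᵥ a) = _
  rw [mulVec_mulVec, mul_assoc, ← Units.val_mul, inv_mul_cancel, Units.val_one, mul_one, ← mulVec_mulVec, h,
    mulVec_smul]

theorem H_cj (A : GL ι F) (φ : ι → F) :
    (H φ).map (cj A).toMonoidHom ≤ H (φ ᵥ* ((A⁻¹ : GL ι F) : Matrix ι ι F)) := by
  rintro _ ⟨g, ⟨c, hc, h⟩, rfl⟩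
  refine ⟨c, hc, ?_⟩
  show (φ ᵥ* ((A⁻¹ : GL ι F) : Matrix ι ι F)) ᵥ* ((A : Matrix ι ι F) * g.1 * ((A⁻¹ : GL ι F) : Matrix ι ι F)) = _
  rw [vecMul_vecMul, mul_assoc, ← mul_assoc ((A⁻¹ : GL ι F) : Matrix ι ι F), ← Units.val_mul, inv_mul_cancel,
    Units.val_one, one_mul, ← vecMul_vecMul, h, smul_vecMul]

theorem P_fld (σ : F ≃+* F) (a : ι → F) :
    (P a).map (fld σ : MulAut (SpecialLinearGroup ι F)).toMonoidHom ≤ P (fun i => σ (a i)) := by
  rintro _ ⟨g, ⟨c, hc, h⟩, rfl⟩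
  refine ⟨σ c, by simpa using hc, ?_⟩
  ext i
  have h1 := congrArg σ (congrFun h i)
  show ∑ j, σ (g.1 i j) * σ (a j) = σ c * σ (a i)
  rw [← map_mul, ← smul_eq_mul, ← Pi.smul_apply, ← h1]
  show _ = σ (∑ j, g.1 i j * a j)
  simp only [map_sum, map_mul]

theorem H_fld (σ : F ≃+* F) (φ : ι → F) :
    (H φ).map (fld σ : MulAut (SpecialLinearGroup ι F)).toMonoidHom ≤ H (fun i => σ (φ i)) := by
  rintro _ ⟨g, ⟨c, hc, h⟩, rfl⟩
  refine ⟨σ c, by simpa using hc, ?_⟩
  ext i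
  have h1 := congrArg σ (congrFun h i)
  show ∑ j, σ (φ j) * σ (g.1 j i) = σ c * σ (φ i)
  rw [← map_mul, ← smul_eq_mul, ← Pi.smul_apply, ← h1]
  show _ = σ (∑ j, φ j * g.1 j i)
  simp only [map_sum, map_mul]

theorem P_itr (a : ι → F) : (P a).map (itr : MulAut (SpecialLinearGroup ι F)).toMonoidHom ≤ H a := by
  rw [H_eq]

theorem H_itr (a : ι → F) : (H a).map (itr : MulAut (SpecialLinearGroup ι F)).toMonoidHom ≤ P a := by
  rw [H_eq, map_map_mul, itr_mul_itr, Cfsg.Agent.H430.CfBase.map_one]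

theorem conj_eq_cj (g : SpecialLinearGroup ι F) :
    (MulAut.conj g : MulAut (SpecialLinearGroup ι F)) = cj (SpecialLinearGroup.toGL g) := by
  apply MulEquiv.ext
  intro x
  apply Subtype.ext
  rw [coe_cj]
  show (g : Matrix ι ι F) * x * ((g⁻¹ : SpecialLinearGroup ι F) : Matrix ι ι F) = _
  have h1 : ((SpecialLinearGroup.toGL g)⁻¹ : GL ι F) = SpecialLinearGroup.toGL g⁻¹ := (map_inv _ _).symm
  rw [h1]
  rfl

/-- The centre lies in `P a`. -/
theorem center_le_P (a : ι → F) [Nonempty ι] : Subgroup.center (SpecialLinearGroup ι F) ≤ P a := by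
  intro z hz
  obtain ⟨r, hr, hz⟩ := Matrix.SpecialLinearGroup.mem_center_iff.1 hz
  refine ⟨r, ?_, ?_⟩
  · rintro rfl
    rw [zero_pow Fintype.card_ne_zero] at hr
    exact zero_ne_one hr
  · rw [← hz, scalar_apply, ← smul_one_eq_diagonal, smul_mulVec, one_mulVec]

theorem center_le_H (a : ι → F) [Nonempty ι] : Subgroup.center (SpecialLinearGroup ι F) ≤ H a := by
  intro z hz
  obtain ⟨r, hr, hz⟩ := Matrix.SpecialLinearGroup.mem_center_iff.1 hz
  refine ⟨r, ?_, ?_⟩
  · rintro rfl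
    rw [zero_pow Fintype.card_ne_zero] at hr
    exact zero_ne_one hr
  · rw [← hz, scalar_apply, ← smul_one_eq_diagonal, vecMul_smul, vecMul_one]

theorem P_smul {a : ι → F} {c : F} (hc : c ≠ 0) : P (c • a) = P a := by
  have key : ∀ (a : ι → F) {c : F} (_ : c ≠ 0), P a ≤ P (c • a) := by
    rintro a c hc g ⟨d, hd, h⟩
    exact ⟨d, hd, by rw [mulVec_smul, h, smul_comm]⟩
  refine le_antisymm ?_ (key a hc)
  have := key (c • a) (inv_ne_zero hc)
  rwa [smul_smul, inv_mul_cancel₀ hc, one_smul] at this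

theorem H_smul {a : ι → F} {c : F} (hc : c ≠ 0) : H (c • a) = H a := by
  have key : ∀ (a : ι → F) {c : F} (_ : c ≠ 0), H a ≤ H (c • a) := by
    rintro a c hc g ⟨d, hd, h⟩
    exact ⟨d, hd, by rw [smul_vecMul, h, smul_comm]⟩
  refine le_antisymm ?_ (key a hc)
  have := key (c • a) (inv_ne_zero hc)
  rwa [smul_smul, inv_mul_cancel₀ hc, one_smul] at this

end basic

section index

open scoped LinearAlgebra.Projectivization

variable {ι F : Type*} [Fintype ι] [DecidableEq ι] [Field F]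

theorem stab_eq_P {a : ι → F} (ha : a ≠ 0) :
    MulAction.stabilizer (SpecialLinearGroup ι F) (Projectivization.mk F a ha) = P a := by
  ext g
  rw [MulAction.mem_stabilizer_iff, Projectivization.matrixSpecialLinearGroup_smul_def, Projectivization.smul_mk,
    Projectivization.mk_eq_mk_iff']
  constructor
  · rintro ⟨c, hc⟩
    have hc' : (g : Matrix ι ι F) *ᵥ a = c • a := hc.symm
    refine ⟨c, ?_, hc'⟩
    rintro rfl
    apply ha
    have h2 : ((g⁻¹ : SpecialLinearGroup ι F) : Matrix ι ι F) *ᵥ ((g : Matrix ι ι F) *ᵥ a) = a := by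
      rw [← sl_mul_mulVec, inv_mul_cancel, Matrix.SpecialLinearGroup.coe_one, one_mulVec]
    rw [← h2, hc', zero_smul, mulVec_zero]
  · rintro ⟨c, -, h⟩
    exact ⟨c, h.symm⟩

theorem index_P [Nontrivial ι] [Finite F] {a : ι → F} (ha : a ≠ 0) : (P a).index = Nat.card (ℙ F (ι → F)) := by
  rw [← stab_eq_P ha, MulAction.index_stabilizer_of_transitive]

theorem index_P' {n : ℕ} [Fintype F] (hn : 2 ≤ n) {a : Fin n → F} (ha : a ≠ 0) :
    (P a).index = (Fintype.card F ^ n - 1) / (Fintype.card F - 1) := by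
  have : Nontrivial (Fin n) := Fin.nontrivial_iff_two_le.2 hn
  rw [index_P ha, Projectivization.card'', Nat.card_fun, Nat.card_fin, Nat.card_eq_fintype_card]

end index

section flags

variable {ι F : Type*} [Fintype ι] [DecidableEq ι] [Field F]

/-- The stabiliser of a point and a hyperplane. -/
def K (a φ : ι → F) : Subgroup (SpecialLinearGroup ι F) := P a ⊓ H φ

theorem exists_conj (hι : 3 ≤ Fintype.card ι) {a φ b ψ : ι → F} (ha : a ≠ 0) (hφ : φ ≠ 0) (h : φ ⬝ᵥ a = 0)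
    (hb : b ≠ 0) (hψ : ψ ≠ 0) (h' : ψ ⬝ᵥ b = 0) :
    ∃ (g : SpecialLinearGroup ι F) (c d : F), c ≠ 0 ∧ d ≠ 0 ∧ (g : Matrix ι ι F) *ᵥ a = c • b ∧
      φ ᵥ* ((g⁻¹ : SpecialLinearGroup ι F) : Matrix ι ι F) = d • ψ := by
  obtain ⟨g, hg⟩ := isConj_iff.1 (Cfsg.Agent.H934.IdxSL.isConj_tr hι ha hφ h hb hψ h')
  have h1 := cj_tr (SpecialLinearGroup.toGL g) a φ h
  rw [← conj_eq_cj] at h1
  have h2 : (MulAut.conj g) (tr a φ h) = tr b ψ h' := hg
  rw [h2] at h1
  have h3 : ((SpecialLinearGroup.toGL g : GL ι F) : Matrix ι ι F) = g := rfl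
  have h4 : (((SpecialLinearGroup.toGL g : GL ι F)⁻¹ : GL ι F) : Matrix ι ι F) =
      ((g⁻¹ : SpecialLinearGroup ι F) : Matrix ι ι F) := by
    rw [← map_inv]; rfl
  have h5 := tr_eq_iff.1 h1
  rw [h3, h4] at h5
  have hga : (g : Matrix ι ι F) *ᵥ a ≠ 0 := by
    intro h0
    apply ha
    have h2 : ((g⁻¹ : SpecialLinearGroup ι F) : Matrix ι ι F) *ᵥ ((g : Matrix ι ι F) *ᵥ a) = a := by
      rw [← sl_mul_mulVec, inv_mul_cancel, Matrix.SpecialLinearGroup.coe_one, one_mulVec]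
    rw [← h2, h0, mulVec_zero]
  have hgφ : φ ᵥ* ((g⁻¹ : SpecialLinearGroup ι F) : Matrix ι ι F) ≠ 0 := by
    intro h0
    apply hφ
    have h2 : (φ ᵥ* ((g⁻¹ : SpecialLinearGroup ι F) : Matrix ι ι F)) ᵥ* (g : Matrix ι ι F) = φ := by
      rw [vecMul_vecMul, ← Matrix.SpecialLinearGroup.coe_mul, inv_mul_cancel, Matrix.SpecialLinearGroup.coe_one,
        vecMul_one]
    rw [← h2, h0, zero_vecMul]
  obtain ⟨c, hc⟩ := exists_smul_of_vecMulVec_eq hgφ h5.symm
  obtain ⟨d, hd⟩ := exists_smul_of_vecMulVec_eq' hga h5.symm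
  refine ⟨g, c, d, ?_, ?_, hc, hd⟩
  · rintro rfl
    rw [zero_smul] at hc
    exact hga hc
  · rintro rfl
    rw [zero_smul] at hd
    exact hgφ hd

theorem K_cj (A : GL ι F) (a φ : ι → F) :
    (K a φ).map (cj A).toMonoidHom ≤ K ((A : Matrix ι ι F) *ᵥ a) (φ ᵥ* ((A⁻¹ : GL ι F) : Matrix ι ι F)) :=
  le_inf ((Subgroup.map_mono inf_le_left).trans (P_cj A a)) ((Subgroup.map_mono inf_le_right).trans (H_cj A φ))

theorem K_fld (σ : F ≃+* F) (a φ : ι → F) :
    (K a φ).map (fld σ : MulAut (SpecialLinearGroup ι F)).toMonoidHom ≤ K (fun i => σ (a i)) (fun i => σ (φ i)) :=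
  le_inf ((Subgroup.map_mono inf_le_left).trans (P_fld σ a)) ((Subgroup.map_mono inf_le_right).trans (H_fld σ φ))

theorem K_itr (a φ : ι → F) :
    (K a φ).map (itr : MulAut (SpecialLinearGroup ι F)).toMonoidHom ≤ K φ a :=
  le_inf ((Subgroup.map_mono inf_le_right).trans (H_itr φ)) ((Subgroup.map_mono inf_le_left).trans (P_itr a))

/-- Stabilisers of flags are conjugate. -/
theorem K_conj_le (hι : 3 ≤ Fintype.card ι) {a φ b ψ : ι → F} (ha : a ≠ 0) (hφ : φ ≠ 0) (h : φ ⬝ᵥ a = 0)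
    (hb : b ≠ 0) (hψ : ψ ≠ 0) (h' : ψ ⬝ᵥ b = 0) :
    ∃ g : SpecialLinearGroup ι F, (K a φ).map (MulAut.conj g).toMonoidHom ≤ K b ψ := by
  obtain ⟨g, c, d, hc, hd, h1, h2⟩ := exists_conj hι ha hφ h hb hψ h'
  refine ⟨g, ?_⟩
  rw [conj_eq_cj]
  refine (K_cj _ a φ).trans ?_
  have h3 : ((SpecialLinearGroup.toGL g : GL ι F) : Matrix ι ι F) = g := rfl
  have h4 : (((SpecialLinearGroup.toGL g : GL ι F)⁻¹ : GL ι F) : Matrix ι ι F) =
      ((g⁻¹ : SpecialLinearGroup ι F) : Matrix ι ι F) := by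
    rw [← map_inv]; rfl
  rw [h3, h4, h1, h2, K, K, P_smul hc, H_smul hd]

theorem card_map_aut {G : Type*} [Group G] (K : Subgroup G) (e : MulAut G) :
    Nat.card (K.map e.toMonoidHom) = Nat.card K :=
  (Nat.card_congr (K.equivMapOfInjective e.toMonoidHom e.injective).toEquiv).symm

theorem card_K_le [Finite F] (hι : 3 ≤ Fintype.card ι) {a φ b ψ : ι → F} (ha : a ≠ 0) (hφ : φ ≠ 0) (h : φ ⬝ᵥ a = 0)
    (hb : b ≠ 0) (hψ : ψ ≠ 0) (h' : ψ ⬝ᵥ b = 0) : Nat.card (K a φ) ≤ Nat.card (K b ψ) := by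
  obtain ⟨g, hg⟩ := K_conj_le hι ha hφ h hb hψ h'
  rw [← card_map_aut (K a φ) (MulAut.conj g)]
  exact Nat.card_le_card_of_injective _ (Subgroup.inclusion_injective hg)

/-- An automorphism which maps a flag stabiliser into another one. -/
theorem exists_conj_of_le [Finite F] (hι : 3 ≤ Fintype.card ι) {a φ b ψ : ι → F} (ha : a ≠ 0) (hφ : φ ≠ 0)
    (h : φ ⬝ᵥ a = 0) (hb : b ≠ 0) (hψ : ψ ≠ 0) (h' : ψ ⬝ᵥ b = 0) (e : MulAut (SpecialLinearGroup ι F))
    (he : (K a φ).map e.toMonoidHom ≤ K b ψ) :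
    ∃ g : SpecialLinearGroup ι F, (K a φ).map e.toMonoidHom = (K a φ).map (MulAut.conj g).toMonoidHom := by
  obtain ⟨g, hg⟩ := K_conj_le hι ha hφ h hb hψ h'
  refine ⟨g, ?_⟩
  have h1 := card_K_le hι hb hψ h' ha hφ h
  rw [Subgroup.eq_of_le_of_card_ge he (by rw [card_map_aut]; exact h1),
    Subgroup.eq_of_le_of_card_ge hg (by rw [card_map_aut]; exact h1)]

/-- Lifting to `PSL`. -/
theorem map_pr_lift (K : Subgroup (SpecialLinearGroup ι F)) (e : MulAut (SpecialLinearGroup ι F)) :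
    (K.map pr).map (lift e).toMonoidHom = (K.map e.toMonoidHom).map pr := by
  rw [Subgroup.map_map, Subgroup.map_map]
  rfl

theorem map_pr_conj (K : Subgroup (SpecialLinearGroup ι F)) (g : SpecialLinearGroup ι F) :
    (K.map pr).map (MulAut.conj (pr g)).toMonoidHom = (K.map (MulAut.conj g).toMonoidHom).map pr := by
  rw [Subgroup.map_map, Subgroup.map_map]
  congr 1

theorem K_ne_top [Nonempty ι] {a φ : ι → F} (ha : P a ≠ ⊤) : (K a φ).map pr ≠ ⊤ := by
  intro h
  apply ha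
  have h1 := Subgroup.comap_map_eq_self (f := (pr : SpecialLinearGroup ι F →* _)) (H := K a φ) (by
    rw [QuotientGroup.ker_mk']
    exact le_inf (center_le_P a) (center_le_H φ))
  rw [h, Subgroup.comap_top] at h1
  rw [eq_top_iff, h1]
  exact inf_le_left

end flags

/-- **`n ≥ 3`.** -/
theorem hasInv_three {F : Type*} [Field F] [Fintype F] {n : ℕ} (hn : 3 ≤ n) :
    HasInv (ProjectiveSpecialLinearGroup (Fin n) F) (((Fintype.card F ^ n - 1) / (Fintype.card F - 1)) ^ 2) := by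
  have hne : Nonempty (Fin n) := ⟨⟨0, by omega⟩⟩
  have hι : 3 ≤ Fintype.card (Fin n) := by rw [Fintype.card_fin]; exact hn
  set q := Fintype.card F with hq
  have hq1 : 1 < q := Fintype.one_lt_card
  obtain ⟨p, hp⟩ := CharP.exists F
  have hpp : p.Prime := CharP.char_is_prime F p
  have : Fact p.Prime := ⟨hpp⟩
  let a : Fin n → F := Pi.single ⟨0, by omega⟩ 1
  let φ : Fin n → F := Pi.single ⟨1, by omega⟩ 1
  have ha : a ≠ 0 := by simp [a]
  have hφ : φ ≠ 0 := by simp [φ]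
  have h : φ ⬝ᵥ a = 0 := by
    simp [a, φ]
  have hi1 : (P a).index = (q ^ n - 1) / (q - 1) := index_P' (by omega) ha
  have hi2 : (H φ).index = (q ^ n - 1) / (q - 1) := by rw [index_H]; exact index_P' (by omega) hφ
  refine ⟨(K a φ).map pr, K_ne_top ?_, ?_, ?_⟩
  · intro h1
    rw [h1, Subgroup.index_top] at hi1
    have h2 : 2 ≤ (q ^ n - 1) / (q - 1) := by
      rw [Nat.le_div_iff_mul_le (by omega)]
      have h3 : q ^ 2 ≤ q ^ n := Nat.pow_le_pow_right (by omega) (by omega)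
      have h4 : 2 * (q - 1) + 1 ≤ q ^ 2 := by
        clear_value q
        obtain ⟨k, rfl⟩ : ∃ k, q = k + 2 := ⟨q - 2, by omega⟩
        simp only [Nat.add_succ_sub_one]
        nlinarith
      omega
    omega
  · intro α
    have key : ∃ (e : MulAut (SpecialLinearGroup (Fin n) F)) (b ψ : Fin n → F), b ≠ 0 ∧ ψ ≠ 0 ∧ ψ ⬝ᵥ b = 0 ∧
        α = lift e ∧ (K a φ).map e.toMonoidHom ≤ K b ψ := by
      have hA : ∀ (A : GL (Fin n) F) (σ : F ≃+* F) (x ψ : Fin n → F) (_ : x ≠ 0) (_ : ψ ≠ 0) (_ : ψ ⬝ᵥ x = 0),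
          ∃ b ψ' : Fin n → F, b ≠ 0 ∧ ψ' ≠ 0 ∧ ψ' ⬝ᵥ b = 0 ∧ (K x ψ).map (cj A * fld σ).toMonoidHom ≤ K b ψ' := by
        intro A σ x ψ hx hψ hxψ
        have h0 : (fun i => σ (x i)) ≠ 0 := by
          intro h0
          apply hx
          ext i
          have := congrFun h0 i
          simpa using this
        have h0' : (fun i => σ (ψ i)) ≠ 0 := by
          intro h0
          apply hψ
          ext i
          have := congrFun h0 i
          simpa using this
        refine ⟨(A : Matrix _ _ F) *ᵥ (fun i => σ (x i)), (fun i => σ (ψ i)) ᵥ* ((A⁻¹ : GL _ F) : Matrix _ _ F), ?_,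
          ?_, ?_, ?_⟩
        · intro h1
          apply h0
          have h2 := congrArg (fun v => ((A⁻¹ : GL (Fin n) F) : Matrix (Fin n) (Fin n) F) *ᵥ v) h1
          simp only [mulVec_mulVec, mulVec_zero] at h2
          rwa [← Units.val_mul, inv_mul_cancel, Units.val_one, one_mulVec] at h2
        · intro h1
          apply h0'
          have h2 := congrArg (fun v => v ᵥ* (A : Matrix (Fin n) (Fin n) F)) h1
          simp only [vecMul_vecMul, zero_vecMul] at h2
          rwa [← Units.val_mul, inv_mul_cancel, Units.val_one, vecMul_one] at h2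
        · rw [vecMul_inv_dotProduct]
          have h1 := congrArg σ hxψ
          rw [map_zero] at h1
          rw [← h1]
          show ∑ i, σ (ψ i) * σ (x i) = σ (∑ i, ψ i * x i)
          simp only [map_sum, map_mul]
        · rw [← map_map_mul]
          exact (Subgroup.map_mono (K_fld σ x ψ)).trans (K_cj A _ _)
      rcases Cfsg.Agent.ClassicalGeometry.AutPSL.Main.surj_three p hn α with ⟨A, σ, rfl⟩ | ⟨A, σ, rfl⟩
      · obtain ⟨b, ψ, h1, h2, h3, h4⟩ := hA A σ a φ ha hφ h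
        exact ⟨_, b, ψ, h1, h2, h3, rfl, h4⟩
      · obtain ⟨b, ψ, h1, h2, h3, h4⟩ := hA A σ φ a hφ ha (by rw [dotProduct_comm, h])
        refine ⟨_, b, ψ, h1, h2, h3, rfl, ?_⟩
        rw [← map_map_mul]
        exact (Subgroup.map_mono (K_itr a φ)).trans h4
    obtain ⟨e, b, ψ, hb, hψ, h', rfl, he⟩ := key
    obtain ⟨g, hg⟩ := exists_conj_of_le hι ha hφ h hb hψ h' e he
    refine ⟨pr g, ?_⟩
    rw [map_pr_lift, hg, map_pr_conj]
  · have h1 : ((K a φ).map pr).index ≤ (K a φ).index :=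
      Nat.le_of_dvd (Nat.pos_of_ne_zero Subgroup.FiniteIndex.index_ne_zero)
        (Subgroup.index_map_dvd _ pr_surjective)
    refine h1.trans ?_
    rw [pow_two]
    calc (K a φ).index ≤ (P a).index * (H φ).index := Subgroup.index_inf_le
      _ = _ := by rw [hi1, hi2]

/-- **`n = 2`.** -/
theorem hasInv_two {F : Type*} [Field F] [Fintype F] :
    HasInv (ProjectiveSpecialLinearGroup (Fin 2) F) (Fintype.card F + 1) := by
  set q := Fintype.card F with hq
  have hq1 : 1 < q := Fintype.one_lt_card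
  obtain ⟨p, hp⟩ := CharP.exists F
  have hpp : p.Prime := CharP.char_is_prime F p
  have : Fact p.Prime := ⟨hpp⟩
  let a : Fin 2 → F := Pi.single 0 1
  have ha : a ≠ 0 := by simp [a]
  have hi : ∀ {a : Fin 2 → F}, a ≠ 0 → (P a).index = q + 1 := by
    intro a ha
    rw [index_P' le_rfl ha]
    apply Nat.div_eq_of_eq_mul_left (by omega)
    rw [← Nat.sq_sub_sq q 1, one_pow]
  refine ⟨(P a).map pr, ?_, ?_, ?_⟩
  · intro h
    have h1 := Subgroup.comap_map_eq_self (f := (pr : SpecialLinearGroup (Fin 2) F →* _)) (H := P a) (by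
      rw [QuotientGroup.ker_mk']
      exact center_le_P a)
    rw [h, Subgroup.comap_top] at h1
    have h2 := hi ha
    rw [← h1, Subgroup.index_top] at h2
    omega
  · intro α
    obtain ⟨A, σ, rfl⟩ := Cfsg.Agent.ClassicalGeometry.AutPSL.Main.surj_two p α
    have h0 : (fun i => σ (a i)) ≠ 0 := by
      intro h0
      apply ha
      ext i
      have := congrFun h0 i
      simpa using this
    have hb0 : (A : Matrix (Fin 2) (Fin 2) F) *ᵥ (fun i => σ (a i)) ≠ 0 := by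
      intro h1
      apply h0
      have h2 := congrArg (fun v => ((A⁻¹ : GL (Fin 2) F) : Matrix (Fin 2) (Fin 2) F) *ᵥ v) h1
      simp only [mulVec_mulVec, mulVec_zero] at h2
      rwa [← Units.val_mul, inv_mul_cancel, Units.val_one, one_mulVec] at h2
    obtain ⟨b, hb⟩ : ∃ b, b = (A : Matrix (Fin 2) (Fin 2) F) *ᵥ (fun i => σ (a i)) := ⟨_, rfl⟩
    rw [← hb] at hb0
    have h1 : (P a).map (cj A * fld σ).toMonoidHom ≤ P b := by
      rw [← map_map_mul, hb]
      exact (Subgroup.map_mono (P_fld σ a)).trans (P_cj A _)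
    have h2 : (P a).map (cj A * fld σ).toMonoidHom = P b := by
      refine Subgroup.eq_of_le_of_card_ge h1 ?_
      have h3 := (P b).card_mul_index
      have h4 := ((P a).map (cj A * fld σ).toMonoidHom).card_mul_index
      rw [index_map_aut, hi ha] at h4
      rw [hi hb0, ← h4] at h3
      exact (Nat.eq_of_mul_eq_mul_right (by omega) h3).le
    obtain ⟨g, hg⟩ := MulAction.exists_smul_eq (SpecialLinearGroup (Fin 2) F) (Projectivization.mk F a ha)
      (Projectivization.mk F b hb0)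
    refine ⟨pr g, ?_⟩
    rw [map_pr_lift, map_pr_conj, h2, ← stab_eq_P ha, ← stab_eq_P hb0, ← hg,
      MulAction.stabilizer_smul_eq_stabilizer_map_conj]
  · rw [← hi ha]
    exact Nat.le_of_dvd (Nat.pos_of_ne_zero Subgroup.FiniteIndex.index_ne_zero)
      (Subgroup.index_map_dvd _ pr_surjective)

/-- **The exception `PSL_4(2)`.** -/
theorem row_of_card_two {F : Type*} [Field F] [Fintype F] (hF : Fintype.card F = 2) {n : ℕ} (hn : 3 ≤ n)
    [Nontrivial (ProjectiveSpecialLinearGroup (Fin n) F)] :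
    Row (ProjectiveSpecialLinearGroup (Fin n) F) := by
  classical
  have hF2 : ∀ x : F, x ≠ 0 → x = 1 := by
    intro x hx
    by_contra h1
    have h3 : ({0, 1, x} : Finset F).card = 3 := by
      rw [Finset.card_insert_of_notMem, Finset.card_insert_of_notMem, Finset.card_singleton]
      · simpa using Ne.symm h1
      · simp [Ne.symm hx]
    have h4 := Finset.card_le_univ ({0, 1, x} : Finset F)
    rw [h3, hF] at h4
    omega
  obtain ⟨p, hp⟩ := CharP.exists F
  have hpp : p.Prime := CharP.char_is_prime F p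
  have : Fact p.Prime := ⟨hpp⟩
  have h1 : ∀ (A : GL (Fin n) F) (σ : F ≃+* F), ∃ s : ProjectiveSpecialLinearGroup (Fin n) F,
      lift (cj A * fld σ) = MulAut.conj s := by
    intro A σ
    have hσ : σ = 1 := by
      apply RingEquiv.ext
      intro x
      by_cases hx : x = 0
      · rw [hx]; simp
      · rw [hF2 x hx]; simp
    have hdet : (A : Matrix (Fin n) (Fin n) F).det = 1 := hF2 _ (A.isUnit.map Matrix.detMonoidHom).ne_zero
    obtain ⟨g, hg⟩ : ∃ g : SpecialLinearGroup (Fin n) F, A = SpecialLinearGroup.toGL g := ⟨⟨A, hdet⟩, Units.ext rfl⟩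
    refine ⟨pr g, ?_⟩
    rw [hσ, _root_.map_one, mul_one, hg, ← conj_eq_cj]
    apply MulEquiv.ext
    intro x
    obtain ⟨x, rfl⟩ := pr_surjective x
    rfl
  refine Row.of_out_two (lift itr) (by rw [← map_mul, itr_mul_itr, _root_.map_one]) fun α => ?_
  rcases Cfsg.Agent.ClassicalGeometry.AutPSL.Main.surj_three p hn α with ⟨A, σ, rfl⟩ | ⟨A, σ, rfl⟩
  · obtain ⟨s, hs⟩ := h1 A σ
    exact ⟨s, Or.inl hs⟩
  · obtain ⟨s, hs⟩ := h1 A σ
    refine ⟨s, Or.inr ?_⟩
    rw [map_mul, hs]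

/-- In a simple group a proper subgroup `H` gives an embedding in the symmetric group on the cosets. -/
theorem card_dvd_factorial {G : Type*} [Group G] [Finite G] [IsSimpleGroup G] (H : Subgroup G) (hH : H ≠ ⊤) :
    Nat.card G ∣ H.index.factorial := by
  classical
  have h1 : H.normalCore = ⊥ := by
    rcases (inferInstance : H.normalCore.Normal).eq_bot_or_eq_top with h | h
    · exact h
    · exact absurd (top_le_iff.1 (h ▸ H.normalCore_le)) hH
  have h2 : Function.Injective (MulAction.toPermHom G (G ⧸ H)) := by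
    rw [← MonoidHom.ker_eq_bot_iff, ← Subgroup.normalCore_eq_ker, h1]
  have h3 := Subgroup.card_dvd_of_injective _ h2
  rw [Nat.card_perm] at h3
  exact h3

/-- The row of the linear groups. -/
theorem row_psl {S : Type*} [Group S] [Finite S] [IsSimpleGroup S] (h : Cfsg.IsPSL S) : Row S := by
  obtain ⟨F, _, _, n, hn, h4, ⟨e⟩⟩ := h
  have hsimple : IsSimpleGroup (ProjectiveSpecialLinearGroup (Fin n) F) := e.isSimpleGroup_congr.1 inferInstance
  refine Row.of_equiv e.symm ?_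
  rcases hn.eq_or_lt with rfl | hn
  · have h4 := h4 rfl
    refine Row.of_hasInv hasInv_two fun L hL => ?_
    by_cases hq : Fintype.card F ∈ ({2, 3, 5, 7, 9, 11} : Finset ℕ)
    · have h5 : 4 ≤ L.index := by
        by_contra hlt
        push Not at hlt
        have h6 := card_dvd_factorial L hL
        have h7 : L.index.factorial ≤ 6 := by
          have := Nat.factorial_le (show L.index ≤ 3 by omega)
          simpa [Nat.factorial] using this
        have h8 := (Nat.le_of_dvd (Nat.factorial_pos _) h6).trans h7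
        have h9 : Odd (Fintype.card F) := by
          simp only [Finset.mem_insert, Finset.mem_singleton] at hq
          rcases hq with h | h | h | h | h | h <;> rw [h] <;> first | (exfalso; omega) | decide
        have h10 := Cfsg.Agent.SmallSimple.PSLTwoPart.card_psl_two_odd h9
        have h11 : 4 * (4 ^ 2 - 1) ≤ Fintype.card F * (Fintype.card F ^ 2 - 1) :=
          Nat.mul_le_mul h4 (Nat.sub_le_sub_right (Nat.pow_le_pow_left h4 2) 1)
        omega
      have h6 : 4 ^ 2 ≤ L.index ^ 2 := Nat.pow_le_pow_left h5 2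
      simp only [Finset.mem_insert, Finset.mem_singleton] at hq
      omega
    · have h5 := (Cfsg.Agent.S0806.result (F := F) rfl hq).1 L hL
      exact h5.trans (Nat.le_self_pow two_ne_zero _)
  · by_cases h42 : n = 4 ∧ Fintype.card F = 2
    · exact row_of_card_two h42.2 hn
    · exact Row.of_hasInv (hasInv_three hn) fun L hL =>
        Nat.pow_le_pow_left ((Cfsg.Agent.S2140.result (F := F) rfl n hn h42).1 L hL) 2

end Cfsg.Agent.H875.RowPSL
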